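import Groth.Prelude.Def_W4c5stcicurvesp3Euclid
import Mathlib.Tactic

/-! helper27: shifting lemmas for the iterated Euclidean remainders/quotients. -/

namespace Groth.Agent.H27.Euclid

open W4c5stcicurvesp3

lemma irem_zero (a b : ℕ) : irem a b 0 = b := by rw [irem]
lemma irem_one (a b : ℕ) : irem a b 1 = a % b := by rw [irem]
lemma irem_add_two (a b n : ℕ) :
    irem a b (n + 2) = if irem a b (n + 1) = 0 then 0 else irem a b n % irem a b (n + 1) := by
  rw [irem]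
lemma idiv_one (a b : ℕ) : idiv a b 1 = a / b := by rw [idiv]
lemma idiv_add_two (a b n : ℕ) :
    idiv a b (n + 2) = if irem a b (n + 1) = 0 then 0 else irem a b n / irem a b (n + 1) := by
  rw [idiv]

lemma irem_shift (a b : ℕ) (h : a % b ≠ 0) : ∀ n, irem a b (n + 1) = irem b (a % b) n := by
  intro n
  induction n using Nat.strong_induction_on with
  | h n ih =>
    match n, ih with
    | 0, _ => rw [irem_one, irem_zero]
    | 1, _ => rw [irem_add_two, irem_one, irem_zero, irem_one, if_neg h]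
    | (n + 2), ih =>
      rw [show n + 2 + 1 = (n + 1) + 2 from rfl, irem_add_two a b (n + 1), irem_add_two b (a % b) n,
        ih (n + 1) (by omega), ih n (by omega)]

lemma idiv_shift (a b : ℕ) (h : a % b ≠ 0) : ∀ n, idiv a b (n + 2) = idiv b (a % b) (n + 1) := by
  intro n
  match n with
  | 0 => rw [idiv_add_two, idiv_one, irem_one, irem_zero, if_neg h]
  | (n + 1) =>
    rw [idiv_add_two a b (n + 1), show n + 1 + 1 = n + 2 from rfl, idiv_add_two b (a % b) n,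
      show n + 2 = (n + 1) + 1 from rfl, irem_shift a b h (n + 1), irem_shift a b h n]

lemma sum_Icc_eq_sum_range {M : Type*} [AddCommMonoid M] (f : ℕ → M) (n : ℕ) :
    ∑ i ∈ Finset.Icc 1 n, f i = ∑ i ∈ Finset.range n, f (i + 1) := by
  induction n with
  | zero => simp
  | succ n ih => rw [Finset.sum_Icc_succ_top (by omega), ih, Finset.sum_range_succ]

/-- remainders are strictly decreasing while nonzero -/
lemma irem_succ_lt (a b : ℕ) (n : ℕ) (h : irem a b n ≠ 0) (hb : 0 < b) :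
    irem a b (n + 1) < irem a b n := by
  match n with
  | 0 => rw [irem_one, irem_zero]; exact Nat.mod_lt a hb
  | (n + 1) =>
    rw [irem_add_two, if_neg h]
    exact Nat.mod_lt _ (Nat.pos_of_ne_zero h)

end Groth.Agent.H27.Euclid

namespace Groth.Agent.H27.Euclid

lemma three_step_ineq (k r1 r2 d1 d2 N A M Q : ℚ) (hA : 0 ≤ A) (hc : 0 ≤ r2) (hM : 0 ≤ M)
    (hQ : 0 ≤ Q) (hAc : 0 < r2 + A)
    (hk : k = (1 + M) * (r2 + A) + r2) (hr1 : r1 = r2 + A) (hd1 : d1 = 2 + Q) (hd2 : d2 = 1 + M)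
    (hN : N = (2 + Q) * ((1 + M) * (r2 + A) + r2) + (r2 + A)) :
    (k - r1) / d1 + (r1 - r2) / (d1 + d2) + r2 / (d1 + d2 + 1) ≤ k ^ 2 / N := by
  subst hk hr1 hd1 hd2 hN
  have hden : 0 < (2 + Q) * ((2 + Q) + (1 + M)) * ((2 + Q) + (1 + M) + 1) := by positivity
  have hNpos : 0 < (2 + Q) * ((1 + M) * (r2 + A) + r2) + (r2 + A) := by positivity
  have h1 : (2 + Q) ≠ 0 := by positivity
  have h2 : (2 + Q) + (1 + M) ≠ 0 := by positivity
  have h3 : (2 + Q) + (1 + M) + 1 ≠ 0 := by positivity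
  have hL : ((1 + M) * (r2 + A) + r2 - (r2 + A)) / (2 + Q) + ((r2 + A) - r2) / ((2 + Q) + (1 + M))
      + r2 / ((2 + Q) + (1 + M) + 1)
      = ((((1 + M) * (r2 + A) + r2 - (r2 + A)) * ((2 + Q) + (1 + M)) + (2 + Q) * ((r2 + A) - r2))
          * ((2 + Q) + (1 + M) + 1) + (2 + Q) * ((2 + Q) + (1 + M)) * r2) /
        ((2 + Q) * ((2 + Q) + (1 + M)) * ((2 + Q) + (1 + M) + 1)) := by
    field_simp
  rw [hL, div_le_div_iff₀ hden hNpos]
  set c := r2
  have hP : 0 ≤ A^2*M^3*Q + A^2*M^3 + A^2*M^2*Q^2 + 6*A^2*M^2*Q + 5*A^2*M^2 + A^2*M*Q^2 + 5*A^2*M*Q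
    + 4*A^2*M + 2*A*c*M^3*Q + 2*A*c*M^3 + 2*A*c*M^2*Q^2 + 13*A*c*M^2*Q + 11*A*c*M^2 + 4*A*c*M*Q^2
    + 19*A*c*M*Q + 15*A*c*M + A*c*Q^2 + 4*A*c*Q + 2*A*c + c^2*M^3*Q + c^2*M^3 + c^2*M^2*Q^2
    + 7*c^2*M^2*Q + 6*c^2*M^2 + 3*c^2*M*Q^2 + 14*c^2*M*Q + 11*c^2*M + 2*c^2*Q^2 + 8*c^2*Q
    + 6*c^2 := by positivity
  linarith [hP]

end Groth.Agent.H27.Euclid

namespace Groth.Agent.H27.Euclid

open W4c5stcicurvesp3

/-- The three-step bound without the hypothesis `irem N k 2 ≠ 0`. -/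
lemma three_step_gen (k N : ℕ) (hk : 0 < k) (hkN : 2 * k ≤ N) (h1 : irem N k 1 ≠ 0) :
    ((irem N k 0 : ℚ) - irem N k 1) / (idiv N k 1)
      + ((irem N k 1 : ℚ) - irem N k 2) / ((idiv N k 1 : ℚ) + idiv N k 2)
      + (irem N k 2 : ℚ) / ((idiv N k 1 : ℚ) + idiv N k 2 + 1)
      ≤ (k : ℚ) ^ 2 / N := by
  have e2 : irem N k 2 = k % (N % k) := by
    rw [irem_add_two, irem_one, irem_zero, if_neg (by rw [irem_one] at h1; exact h1)]
  have f2 : idiv N k 2 = k / (N % k) := by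
    rw [idiv_add_two, irem_one, irem_zero, if_neg (by rw [irem_one] at h1; exact h1)]
  rw [irem_one] at h1
  rw [irem_zero, irem_one, e2, idiv_one, f2]
  have hN : k * (N / k) + N % k = N := Nat.div_add_mod N k
  have hk' : (N % k) * (k / (N % k)) + k % (N % k) = k := Nat.div_add_mod k (N % k)
  have hd1 : 2 ≤ N / k := (Nat.le_div_iff_mul_le hk).mpr (by linarith)
  have hr1k : N % k < k := Nat.mod_lt _ hk
  have hd2 : 1 ≤ k / (N % k) := Nat.div_pos hr1k.le (Nat.pos_of_ne_zero h1)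
  have hr2r1 : k % (N % k) < N % k := Nat.mod_lt _ (Nat.pos_of_ne_zero h1)
  generalize N % k = r1 at *
  generalize k % r1 = r2 at *
  generalize N / k = d1 at *
  generalize k / r1 = d2 at *
  obtain ⟨Q, rfl⟩ : ∃ Q, d1 = 2 + Q := ⟨d1 - 2, by omega⟩
  obtain ⟨M, rfl⟩ : ∃ M, d2 = 1 + M := ⟨d2 - 1, by omega⟩
  obtain ⟨A, rfl⟩ : ∃ A, r1 = r2 + A := ⟨r1 - r2, by omega⟩
  have hAc : 0 < (r2 : ℚ) + (A : ℚ) := by
    have : 0 < r2 + A := by omega
    exact_mod_cast this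
  have hk2 : k = (1 + M) * (r2 + A) + r2 := by linarith
  have hN2 : N = (2 + Q) * ((1 + M) * (r2 + A) + r2) + (r2 + A) := by rw [← hk2]; linarith
  apply three_step_ineq (A := A) (M := M) (Q := Q) _ _ _ _ _ _
    (by positivity) (by positivity) (by positivity) (by positivity) hAc
  · exact_mod_cast hk2
  · push_cast; ring
  · push_cast; ring
  · push_cast; ring
  · exact_mod_cast hN2

end Groth.Agent.H27.Euclid
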